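import Mathlib
import Cfsg.Agent.H277.EM.Univ

/-!
# S2243: squares of lifts (helper277)

`π : L → S` central with kernel of exponent two.

* `sq_mul`, `comm_mul`: computing with squares and commutators of lifts;
* `lft_five`: all classes of a group of hermitian (or symmetric) `3 x 3` matrices over `F_4` lift: `t1, t2, t3, t4, t5`
  stand for `e1 e1^*, e2 e2^*, e3 e3^*, J, (e1+e2)(e1+e2)^*`.
-/

set_option autoImplicit false

namespace Cfsg.Agent.H277.MI

open Subgroup
open scoped commutatorElement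

universe u v w

section calcs

variable {L : Type u} [Group L]

theorem sq_mul {x y c : L} (hc : ∀ g, g * c = c * g) (h : y * x = x * y * c) :
    x * y * (x * y) = x * x * (y * y) * c := by
  calc x * y * (x * y) = x * (y * x) * y := by group
    _ = x * x * y * (c * y) := by rw [h]; group
    _ = x * x * (y * y) * c := by rw [← hc]; group

theorem comm_mul {w x y c d : L} (hc : ∀ g, g * c = c * g) (h1 : w * x = x * w * c) (h2 : w * y = y * w * d) :
    w * (x * y) = x * y * w * (c * d) := by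
  calc w * (x * y) = (w * x) * y := by group
    _ = x * w * (c * y) := by rw [h1]; group
    _ = x * (w * y) * c := by rw [← hc]; group
    _ = x * y * w * (d * c) := by rw [h2]; group
    _ = x * y * w * (c * d) := by rw [hc]

end calcs

section lifts

variable {L : Type u} {S : Type v} [Group L] [Group S] {π : L →* S}

/-- **The five elements.** -/
theorem lft_five (hs : Function.Surjective π) (hc : π.ker ≤ center L) (h2 : ∀ z ∈ π.ker, z * z = 1)
    {t1 t2 t3 t4 t5 : S} (ht : t1 * t1 = 1)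
    (c12 : t1 * t2 = t2 * t1) (c13 : t1 * t3 = t3 * t1) (c23 : t2 * t3 = t3 * t2) (c14 : t1 * t4 = t4 * t1)
    (c24 : t2 * t4 = t4 * t2) (c34 : t3 * t4 = t4 * t3) (c15 : t1 * t5 = t5 * t1) (c25 : t2 * t5 = t5 * t2)
    (k2 : IsConj t1 t2) (k3 : IsConj t1 t3) (k4 : IsConj t1 t4) (k5 : IsConj t1 t5)
    (k13 : IsConj (t1 * t2) (t1 * t3)) (k23 : IsConj (t1 * t2) (t2 * t3)) (k14 : IsConj (t1 * t2) (t1 * t4))
    (k24 : IsConj (t1 * t2) (t2 * t4)) (k34 : IsConj (t1 * t2) (t3 * t4)) (k15 : IsConj (t1 * t2) (t1 * t5))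
    (k25 : IsConj (t1 * t2) (t2 * t5)) (k125 : IsConj (t1 * t2) (t1 * t2 * t5))
    (k1234 : IsConj (t1 * t2) (t1 * t2 * t3 * t4)) :
    Lft π t1 ∧ Lft π (t1 * t2) ∧ Lft π (t1 * t2 * t3) := by
  obtain ⟨x1, h1⟩ := hs t1
  obtain ⟨x2, h22⟩ := hs t2
  obtain ⟨x3, h3⟩ := hs t3
  obtain ⟨x4, h4⟩ := hs t4
  obtain ⟨x5, h5⟩ := hs t5
  have sqc : ∀ {a b : S}, a * a = 1 → IsConj a b → b * b = 1 := by
    intro a b haa hab
    obtain ⟨g, rfl⟩ := isConj_iff.1 hab
    rw [show g * a * g⁻¹ * (g * a * g⁻¹) = g * (a * a) * g⁻¹ by group, haa, mul_one, mul_inv_cancel]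
  have ht2 := sqc ht k2
  have ht12 : t1 * t2 * (t1 * t2) = 1 := by
    rw [show t1 * t2 * (t1 * t2) = t1 * (t2 * t1) * t2 by group, ← c12,
      show t1 * (t1 * t2) * t2 = (t1 * t1) * (t2 * t2) by group, ht, ht2, mul_one]
  -- the two constants
  obtain ⟨α, hα⟩ : ∃ α, α = x1 * x1 := ⟨_, rfl⟩
  obtain ⟨γ, hγ⟩ : ∃ γ, γ = x1 * x2 * (x1 * x2) := ⟨_, rfl⟩
  have hαk : α ∈ π.ker := by rw [hα, MonoidHom.mem_ker, map_mul, h1, ht]
  have hγk : γ ∈ π.ker := by rw [hγ, MonoidHom.mem_ker, map_mul, map_mul, h1, h22, ht12]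
  have hα2 := h2 _ hαk
  have hγ2 := h2 _ hγk
  have hαc : ∀ g, g * α = α * g := fun g => mem_center_iff.1 (hc hαk) g
  have hγc : ∀ g, g * γ = γ * g := fun g => mem_center_iff.1 (hc hγk) g
  have s2 : x2 * x2 = α := by rw [hα]; exact (sq_lift_eq hs hc h2 ht k2 h1 h22).symm
  have s3 : x3 * x3 = α := by rw [hα]; exact (sq_lift_eq hs hc h2 ht k3 h1 h3).symm
  have s4 : x4 * x4 = α := by rw [hα]; exact (sq_lift_eq hs hc h2 ht k4 h1 h4).symm
  have s5 : x5 * x5 = α := by rw [hα]; exact (sq_lift_eq hs hc h2 ht k5 h1 h5).symm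
  have pair : ∀ {a b : S} {x y : L}, π x = a → π y = b → a * b = b * a → x * x = α → y * y = α →
      IsConj (t1 * t2) (a * b) → y * x = x * y * γ := by
    intro a b x y hx hy hab hxx hyy hk
    have e1 : x * y * (x * y) = γ := by
      rw [hγ]
      exact (sq_lift_eq hs hc h2 ht12 hk (by rw [map_mul, h1, h22]) (by rw [map_mul, hx, hy])).symm
    obtain ⟨c, hcdef⟩ : ∃ c, c = (x * y)⁻¹ * (y * x) := ⟨_, rfl⟩
    have e2 : y * x = x * y * c := by rw [hcdef]; group
    have hck : c ∈ π.ker := by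
      rw [hcdef, MonoidHom.mem_ker, map_mul, map_inv, map_mul, map_mul, hx, hy, hab, inv_mul_cancel]
    have e3 := sq_mul (fun g => mem_center_iff.1 (hc hck) g) e2
    rw [e1, hxx, hyy, hα2, one_mul] at e3
    rw [e2, e3]
  have p12 := pair h1 h22 c12 hα.symm s2 (IsConj.refl _)
  have p13 := pair h1 h3 c13 hα.symm s3 k13
  have p23 := pair h22 h3 c23 s2 s3 k23
  have p14 := pair h1 h4 c14 hα.symm s4 k14
  have p24 := pair h22 h4 c24 s2 s4 k24
  have p34 := pair h3 h4 c34 s3 s4 k34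
  have p15 := pair h1 h5 c15 hα.symm s5 k15
  have p25 := pair h22 h5 c25 s2 s5 k25
  have hone : ∀ g : L, g * (1 : L) = 1 * g := fun g => by rw [mul_one, one_mul]
  -- `t1 t2 t5`
  have q125 := comm_mul hγc p15 p25
  rw [hγ2, mul_one] at q125
  have r125 := sq_mul (x := x1 * x2) (y := x5) hone (by rw [mul_one]; exact q125)
  rw [mul_one, ← hγ, s5] at r125
  have r125' : x1 * x2 * x5 * (x1 * x2 * x5) = γ := by
    rw [hγ]
    exact (sq_lift_eq hs hc h2 ht12 k125 (by rw [map_mul, h1, h22]) (by rw [map_mul, map_mul, h1, h22, h5])).symm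
  rw [r125'] at r125
  have hα1 : α = 1 := by
    have : γ * γ = γ * (γ * α) := by rw [← r125]
    rw [← mul_assoc, hγ2, one_mul] at this
    exact this.symm
  -- `t1 t2 t3`
  have q123 := comm_mul hγc p13 p23
  rw [hγ2, mul_one] at q123
  have r123 := sq_mul (x := x1 * x2) (y := x3) hone (by rw [mul_one]; exact q123)
  rw [mul_one, ← hγ, s3, hα1, mul_one] at r123
  -- `t1 t2 t3 t4`
  have q124 := comm_mul hγc p14 p24
  rw [hγ2, mul_one] at q124
  have q1234 := comm_mul (w := x4) (x := x1 * x2) (y := x3) (c := 1) (d := γ) hone (by rw [mul_one]; exact q124) p34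
  rw [one_mul] at q1234
  have r1234 := sq_mul (x := x1 * x2 * x3) (y := x4) hγc q1234
  rw [r123, s4, hα1, mul_one, hγ2] at r1234
  have r1234' : x1 * x2 * x3 * x4 * (x1 * x2 * x3 * x4) = γ := by
    rw [hγ]
    exact (sq_lift_eq hs hc h2 ht12 k1234 (by rw [map_mul, h1, h22])
      (by rw [map_mul, map_mul, map_mul, h1, h22, h3, h4])).symm
  rw [r1234'] at r1234
  refine ⟨⟨x1, h1, by rw [← hα, hα1]⟩, ⟨x1 * x2, by rw [map_mul, h1, h22], by rw [← hγ, r1234]⟩,
    ⟨x1 * x2 * x3, by rw [map_mul, map_mul, h1, h22, h3], by rw [r123, r1234]⟩⟩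

end lifts

end Cfsg.Agent.H277.MI
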