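import Mathlib
import Cfsg.Agent.H277.EM.Quad
import Cfsg.Agent.H277.Unf.PsuEven
import Cfsg.Agent.S2089
import Cfsg.Agent.S2091

/-!
# S2243: `PSU_n(q)`, `q` even
-/

set_option autoImplicit false
set_option linter.unusedSectionVars false

namespace Cfsg.Agent.H277.MI.PsuEven

open Cfsg Matrix Cfsg.Agent.LieClassical.HermBasic Cfsg.Agent.LieClassical.HermSiegel
open Cfsg.Agent.LieClassical.GUOrder (mul_map_eq_one_iff frob frob_apply)
open Cfsg.Agent.H277.UnfPsuEven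
open Cfsg.Agent.H51.Mult

universe u

variable {F : Type*} [Field F] [Fintype F] {q n m : ℕ}

/-- real symmetric matrices are hermitian -/
theorem hm_real (hF : Fintype.card F = q ^ 2) (f : ZMod 2 →+* F) {t : Matrix (Fin m) (Fin m) (ZMod 2)} (ht : tᵀ = t) :
    Hm hF (f.mapMatrix t) := by
  unfold Hm
  ext i j
  rw [Matrix.transpose_apply, Matrix.map_apply, RingHom.mapMatrix_apply, Matrix.map_apply, Matrix.map_apply,
    frob_apply]
  have h3 : t j i = t i j := by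
    conv_lhs => rw [← ht]
    rfl
  rw [h3]
  have h5 : ∀ z : ZMod 2, z = 0 ∨ z = 1 := by decide
  rcases h5 (t i j) with h | h
  · rw [h, map_zero, zero_pow]
    have := two_le hF
    omega
  · rw [h, map_one, one_pow]

/-- the rank of a real matrix -/
theorem rank_real (f : ZMod 2 →+* F) {k : ℕ} {t : Matrix (Fin m) (Fin m) (ZMod 2)}
    (A : Matrix (Fin m) (Fin k) (ZMod 2)) (B : Matrix (Fin k) (Fin m) (ZMod 2)) (C : Matrix (Fin k) (Fin m) (ZMod 2))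
    (D : Matrix (Fin m) (Fin k) (ZMod 2)) (h1 : t = A * B) (h2 : C * t * D = 1) : (f.mapMatrix t).rank = k := by
  have e1 : f.mapMatrix t = A.map f * B.map f := by
    rw [h1, RingHom.mapMatrix_apply, Matrix.map_mul]
  have e2 : C.map f * f.mapMatrix t * D.map f = 1 := by
    rw [RingHom.mapMatrix_apply, ← Matrix.map_mul, ← Matrix.map_mul, h2]
    simp
  apply le_antisymm
  · rw [e1]
    exact (Matrix.rank_mul_le_left _ _).trans (by simpa using Matrix.rank_le_width (A.map f))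
  · have h3 : (1 : Matrix (Fin k) (Fin k) F).rank = k := by rw [Matrix.rank_one, Fintype.card_fin]
    calc k = (C.map f * f.mapMatrix t * D.map f).rank := by rw [e2, h3]
      _ ≤ _ := (Matrix.rank_mul_le_left _ _).trans (Matrix.rank_mul_le_right _ _)


theorem rk_E1 (f : ZMod 2 →+* F) : (f.mapMatrix (!![1, 0, 0; 0, 0, 0; 0, 0, 0] : Matrix (Fin 3) (Fin 3) (ZMod 2))).rank = 1 :=
  rank_real f !![1; 0; 0] !![1, 0, 0] !![1, 0, 0] !![1; 0; 0] (by decide) (by decide)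

theorem rk_E2 (f : ZMod 2 →+* F) : (f.mapMatrix (!![0, 0, 0; 0, 1, 0; 0, 0, 0] : Matrix (Fin 3) (Fin 3) (ZMod 2))).rank = 1 :=
  rank_real f !![0; 1; 0] !![0, 1, 0] !![0, 1, 0] !![0; 1; 0] (by decide) (by decide)

theorem rk_E3 (f : ZMod 2 →+* F) : (f.mapMatrix (!![0, 0, 0; 0, 0, 0; 0, 0, 1] : Matrix (Fin 3) (Fin 3) (ZMod 2))).rank = 1 :=
  rank_real f !![0; 0; 1] !![0, 0, 1] !![0, 0, 1] !![0; 0; 1] (by decide) (by decide)

theorem rk_J4 (f : ZMod 2 →+* F) : (f.mapMatrix (!![1, 1, 1; 1, 1, 1; 1, 1, 1] : Matrix (Fin 3) (Fin 3) (ZMod 2))).rank = 1 :=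
  rank_real f !![1; 1; 1] !![1, 1, 1] !![1, 0, 0] !![1; 0; 0] (by decide) (by decide)

theorem rk_T5 (f : ZMod 2 →+* F) : (f.mapMatrix (!![1, 1, 0; 1, 1, 0; 0, 0, 0] : Matrix (Fin 3) (Fin 3) (ZMod 2))).rank = 1 :=
  rank_real f !![1; 1; 0] !![1, 1, 0] !![1, 0, 0] !![1; 0; 0] (by decide) (by decide)

theorem rk_E12 (f : ZMod 2 →+* F) : (f.mapMatrix (!![1, 0, 0; 0, 1, 0; 0, 0, 0] : Matrix (Fin 3) (Fin 3) (ZMod 2))).rank = 2 :=
  rank_real f !![1, 0; 0, 1; 0, 0] !![1, 0, 0; 0, 1, 0] !![1, 0, 0; 0, 1, 0] !![1, 0; 0, 1; 0, 0] (by decide) (by decide)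

theorem rk_E13 (f : ZMod 2 →+* F) : (f.mapMatrix (!![1, 0, 0; 0, 0, 0; 0, 0, 1] : Matrix (Fin 3) (Fin 3) (ZMod 2))).rank = 2 :=
  rank_real f !![1, 0; 0, 0; 0, 1] !![1, 0, 0; 0, 0, 1] !![1, 0, 0; 0, 0, 1] !![1, 0; 0, 0; 0, 1] (by decide) (by decide)

theorem rk_E23 (f : ZMod 2 →+* F) : (f.mapMatrix (!![0, 0, 0; 0, 1, 0; 0, 0, 1] : Matrix (Fin 3) (Fin 3) (ZMod 2))).rank = 2 :=
  rank_real f !![0, 0; 1, 0; 0, 1] !![0, 1, 0; 0, 0, 1] !![0, 1, 0; 0, 0, 1] !![0, 0; 1, 0; 0, 1] (by decide) (by decide)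

theorem rk_E1J (f : ZMod 2 →+* F) : (f.mapMatrix (!![0, 1, 1; 1, 1, 1; 1, 1, 1] : Matrix (Fin 3) (Fin 3) (ZMod 2))).rank = 2 :=
  rank_real f !![0, 1; 1, 1; 1, 1] !![1, 0, 0; 0, 1, 1] !![1, 1, 0; 1, 0, 0] !![1, 0; 0, 1; 0, 0] (by decide) (by decide)

theorem rk_E2J (f : ZMod 2 →+* F) : (f.mapMatrix (!![1, 1, 1; 1, 0, 1; 1, 1, 1] : Matrix (Fin 3) (Fin 3) (ZMod 2))).rank = 2 :=
  rank_real f !![1, 1; 1, 0; 1, 1] !![1, 0, 1; 0, 1, 0] !![0, 1, 0; 1, 1, 0] !![1, 0; 0, 1; 0, 0] (by decide) (by decide)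

theorem rk_E3J (f : ZMod 2 →+* F) : (f.mapMatrix (!![1, 1, 1; 1, 1, 1; 1, 1, 0] : Matrix (Fin 3) (Fin 3) (ZMod 2))).rank = 2 :=
  rank_real f !![1, 1; 1, 1; 1, 0] !![1, 1, 0; 0, 0, 1] !![0, 0, 1; 1, 0, 1] !![1, 0; 0, 0; 0, 1] (by decide) (by decide)

theorem rk_E15 (f : ZMod 2 →+* F) : (f.mapMatrix (!![0, 1, 0; 1, 1, 0; 0, 0, 0] : Matrix (Fin 3) (Fin 3) (ZMod 2))).rank = 2 :=
  rank_real f !![0, 1; 1, 1; 0, 0] !![1, 0, 0; 0, 1, 0] !![1, 1, 0; 1, 0, 0] !![1, 0; 0, 1; 0, 0] (by decide) (by decide)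

theorem rk_E25 (f : ZMod 2 →+* F) : (f.mapMatrix (!![1, 1, 0; 1, 0, 0; 0, 0, 0] : Matrix (Fin 3) (Fin 3) (ZMod 2))).rank = 2 :=
  rank_real f !![1, 1; 1, 0; 0, 0] !![1, 0, 0; 0, 1, 0] !![0, 1, 0; 1, 1, 0] !![1, 0; 0, 1; 0, 0] (by decide) (by decide)

theorem rk_E125 (f : ZMod 2 →+* F) : (f.mapMatrix (!![0, 1, 0; 1, 0, 0; 0, 0, 0] : Matrix (Fin 3) (Fin 3) (ZMod 2))).rank = 2 :=
  rank_real f !![0, 1; 1, 0; 0, 0] !![1, 0, 0; 0, 1, 0] !![0, 1, 0; 1, 0, 0] !![1, 0; 0, 1; 0, 0] (by decide) (by decide)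

theorem rk_E1234 (f : ZMod 2 →+* F) : (f.mapMatrix (!![0, 1, 1; 1, 0, 1; 1, 1, 0] : Matrix (Fin 3) (Fin 3) (ZMod 2))).rank = 2 :=
  rank_real f !![0, 1; 1, 0; 1, 1] !![1, 0, 1; 0, 1, 1] !![0, 1, 0; 1, 0, 0] !![1, 0; 0, 1; 0, 0] (by decide) (by decide)

theorem rk_E123 (f : ZMod 2 →+* F) : (f.mapMatrix (!![1, 0, 0; 0, 1, 0; 0, 0, 1] : Matrix (Fin 3) (Fin 3) (ZMod 2))).rank = 3 :=
  rank_real f !![1, 0, 0; 0, 1, 0; 0, 0, 1] !![1, 0, 0; 0, 1, 0; 0, 0, 1] !![1, 0, 0; 0, 1, 0; 0, 0, 1] !![1, 0, 0; 0, 1, 0; 0, 0, 1] (by decide) (by decide)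


theorem isConj_mk (hF : Fintype.card F = q ^ 2) (h2 : (2 : F) = 0) {A B : SU n F q} (hA : A ^ 2 = 1) (hB : B ^ 2 = 1)
    (hr : (mat A - 1).rank = (mat B - 1).rank) (hpos : 0 < (mat B - 1).rank) :
    IsConj (QuotientGroup.mk' (Subgroup.center (SU n F q)) A) (QuotientGroup.mk' (Subgroup.center (SU n F q)) B) :=
  MonoidHom.map_isConj _ (H80.isConj_SU h2 hF hA hB hr hpos)

/-- diagonal matrices of given rank -/
theorem exists_rank (hF : Fintype.card F = q ^ 2) {k : ℕ} (hk : k ≤ m) : ∃ s : Matrix (Fin m) (Fin m) F, Hm hF s ∧ s.rank = k := by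
  refine ⟨Matrix.diagonal fun i => if (i : ℕ) < k then 1 else 0, ?_, ?_⟩
  · unfold Hm
    rw [Matrix.diagonal_transpose, Matrix.diagonal_map (map_zero _)]
    congr 1
    funext i
    split_ifs <;> simp
  · classical
    rw [Matrix.rank_diagonal]
    have h1 : ∀ i : Fin m, (if (i : ℕ) < k then (1 : F) else 0) ≠ 0 ↔ (i : ℕ) < k := by
      intro i
      split_ifs with h <;> simp [h]
    simp only [h1]
    exact Cfsg.Agent.H131.ClassTwo.card_lt k hk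

theorem em_psu_even (hF : Fintype.card F = q ^ 2) (hn : 3 ≤ n) (hq : Even q) : EM (PSU n F q) := by
  have h2 := two_zero hF hq
  have hm : 2 * (n / 2) ≤ n := Nat.mul_div_le n 2
  refine em_iff.2 ⟨(R hF h2 hm).map (QuotientGroup.mk' (Subgroup.center (SU n F q))), ?_, ?_⟩
  · rintro _ ⟨_, ⟨s, hs, rfl⟩, rfl⟩
    rw [← map_mul, ← pow_two, U_sq hF h2 hm hs, map_one]
  · intro t ht
    obtain ⟨A, hA, hA1, rfl⟩ := exists_lift hF hn hq ht
    have hpos := rank_pos hA1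
    have hle := two_rank_le h2 hA
    obtain ⟨s, hs, hsr⟩ := exists_rank (F := F) hF (m := n / 2) (k := (mat A - 1).rank) (by omega)
    have hr : (mat (U hF h2 hm s (n := n)) - 1).rank = (mat A - 1).rank := by
      rw [mat_U hF h2 hm hs, rank_Um hm, hsr]
    obtain ⟨g, hg⟩ := isConj_iff.1 (isConj_mk hF h2 hA (U_sq hF h2 hm hs) hr.symm (by rw [hr]; exact hpos))
    exact ⟨g, by rw [hg]; exact Subgroup.mem_map_of_mem _ ⟨s, hs, rfl⟩⟩

/-- **`U_6(2)`**: all involutions lift in every extension with kernel of exponent two. -/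
theorem lft_usix (hF : Fintype.card F = 2 ^ 2) {L : Type u} [Group L] {π : L →* PSU 6 F 2}
    (hs : Function.Surjective π) (hc : π.ker ≤ Subgroup.center L) (hz : ∀ z ∈ π.ker, z * z = 1) {t : PSU 6 F 2}
    (ht : orderOf t = 2) : Lft π t := by
  have h2 := two_zero hF even_two
  have hch : CharP F 2 := CharTwo.of_one_ne_zero_of_two_eq_zero one_ne_zero h2
  obtain ⟨f, hf⟩ : ∃ f : ZMod 2 →+* F, f = ZMod.castHom (dvd_refl 2) F := ⟨_, rfl⟩
  have hm : 2 * 3 ≤ 6 := le_refl 6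
  obtain ⟨ψ, hψ⟩ : ∃ ψ : Matrix (Fin 3) (Fin 3) (ZMod 2) → PSU 6 F 2, ψ = fun s =>
    QuotientGroup.mk' (Subgroup.center (SU 6 F 2)) (U hF h2 hm (f.mapMatrix s)) := ⟨_, rfl⟩
  have hadd : ∀ s t, sᵀ = s → tᵀ = t → ψ s * ψ t = ψ (s + t) := by
    intro s t h h'
    rw [hψ]
    show QuotientGroup.mk' _ _ * QuotientGroup.mk' _ _ = QuotientGroup.mk' _ _
    rw [← map_mul, U_mul hF h2 hm (hm_real hF f h) (hm_real hF f h'), map_add]
  have hcj : ∀ s t, sᵀ = s → tᵀ = t → (f.mapMatrix s).rank = (f.mapMatrix t).rank → 0 < (f.mapMatrix t).rank →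
      IsConj (ψ s) (ψ t) := by
    intro s t h h' hr hp
    rw [hψ]
    refine isConj_mk hF h2 (U_sq hF h2 hm (hm_real hF f h)) (U_sq hF h2 hm (hm_real hF f h')) ?_ ?_
    · rw [mat_U hF h2 hm (hm_real hF f h), rank_Um hm, mat_U hF h2 hm (hm_real hF f h'), rank_Um hm, hr]
    · rw [mat_U hF h2 hm (hm_real hF f h'), rank_Um hm]; exact hp
  -- the matrices
  have cj1 : ∀ s : Matrix (Fin 3) (Fin 3) (ZMod 2), sᵀ = s → (f.mapMatrix s).rank = 1 →
      IsConj (ψ !![1, 0, 0; 0, 0, 0; 0, 0, 0]) (ψ s) := fun s h h' =>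
    hcj _ _ (by decide) h (by rw [rk_E1, h']) (by rw [h']; norm_num)
  have cj2 : ∀ s : Matrix (Fin 3) (Fin 3) (ZMod 2), sᵀ = s → (f.mapMatrix s).rank = 2 →
      IsConj (ψ !![1, 0, 0; 0, 1, 0; 0, 0, 0]) (ψ s) := fun s h h' =>
    hcj _ _ (by decide) h (by rw [rk_E12, h']) (by rw [h']; norm_num)
  have hcm : ∀ s t, sᵀ = s → tᵀ = t → ψ s * ψ t = ψ t * ψ s := fun s t h h' => by
    rw [hadd s t h h', hadd t s h' h, add_comm]
  have a12 : ψ !![1, 0, 0; 0, 0, 0; 0, 0, 0] * ψ !![0, 0, 0; 0, 1, 0; 0, 0, 0] = ψ !![1, 0, 0; 0, 1, 0; 0, 0, 0] := by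
    rw [hadd _ _ (by decide) (by decide)]; congr 1; decide
  have key := lft_five hs hc hz (t1 := ψ !![1, 0, 0; 0, 0, 0; 0, 0, 0]) (t2 := ψ !![0, 0, 0; 0, 1, 0; 0, 0, 0])
    (t3 := ψ !![0, 0, 0; 0, 0, 0; 0, 0, 1]) (t4 := ψ !![1, 1, 1; 1, 1, 1; 1, 1, 1])
    (t5 := ψ !![1, 1, 0; 1, 1, 0; 0, 0, 0]) ?_ (hcm _ _ (by decide) (by decide)) (hcm _ _ (by decide) (by decide))
    (hcm _ _ (by decide) (by decide)) (hcm _ _ (by decide) (by decide)) (hcm _ _ (by decide) (by decide))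
    (hcm _ _ (by decide) (by decide)) (hcm _ _ (by decide) (by decide)) (hcm _ _ (by decide) (by decide))
    (cj1 _ (by decide) (rk_E2 f)) (cj1 _ (by decide) (rk_E3 f)) (cj1 _ (by decide) (rk_J4 f))
    (cj1 _ (by decide) (rk_T5 f)) ?_ ?_ ?_ ?_ ?_ ?_ ?_ ?_ ?_
  rotate_left
  · rw [hadd _ _ (by decide) (by decide)]
    rw [← map_one (QuotientGroup.mk' (Subgroup.center (SU 6 F 2))), hψ]
    show QuotientGroup.mk' _ _ = QuotientGroup.mk' _ _
    congr 1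
    rw [show (!![1, 0, 0; 0, 0, 0; 0, 0, 0] + !![1, 0, 0; 0, 0, 0; 0, 0, 0] : Matrix (Fin 3) (Fin 3) (ZMod 2)) = 0 by decide,
      map_zero, U_zero]
  · rw [a12, hadd _ _ (by decide) (by decide)]
    exact cj2 _ (by decide) (by convert rk_E13 f using 3; decide)
  · rw [a12, hadd _ _ (by decide) (by decide)]
    exact cj2 _ (by decide) (by convert rk_E23 f using 3; decide)
  · rw [a12, hadd _ _ (by decide) (by decide)]
    exact cj2 _ (by decide) (by convert rk_E1J f using 3; decide)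
  · rw [a12, hadd _ _ (by decide) (by decide)]
    exact cj2 _ (by decide) (by convert rk_E2J f using 3; decide)
  · rw [a12, hadd _ _ (by decide) (by decide)]
    exact cj2 _ (by decide) (by convert rk_E3J f using 3; decide)
  · rw [a12, hadd _ _ (by decide) (by decide)]
    exact cj2 _ (by decide) (by convert rk_E15 f using 3; decide)
  · rw [a12, hadd _ _ (by decide) (by decide)]
    exact cj2 _ (by decide) (by convert rk_E25 f using 3; decide)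
  · rw [a12, hadd _ _ (by decide) (by decide)]
    exact cj2 _ (by decide) (by convert rk_E125 f using 3; decide)
  · rw [a12, hadd _ _ (by decide) (by decide), hadd _ _ (by decide) (by decide)]
    exact cj2 _ (by decide) (by convert rk_E1234 f using 3; decide)
  obtain ⟨l1, l2, l3⟩ := key
  rw [a12] at l2 l3
  rw [hadd _ _ (by decide) (by decide),
    show (!![1, 0, 0; 0, 1, 0; 0, 0, 0] + !![0, 0, 0; 0, 0, 0; 0, 0, 1] : Matrix (Fin 3) (Fin 3) (ZMod 2)) =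
      !![1, 0, 0; 0, 1, 0; 0, 0, 1] by decide] at l3
  obtain ⟨A, hA, hA1, rfl⟩ := exists_lift hF (by norm_num) even_two ht
  have hpos := rank_pos hA1
  have hle := two_rank_le h2 hA
  have fin : ∀ s : Matrix (Fin 3) (Fin 3) (ZMod 2), sᵀ = s → (f.mapMatrix s).rank = (mat A - 1).rank → Lft π (ψ s) →
      Lft π (QuotientGroup.mk' (Subgroup.center (SU 6 F 2)) A) := by
    intro s h h' hl
    refine hl.isConj hs ?_
    rw [hψ]
    refine isConj_mk hF h2 (U_sq hF h2 hm (hm_real hF f h)) hA ?_ hpos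
    rw [mat_U hF h2 hm (hm_real hF f h), rank_Um hm, h']
  have h3 : (mat A - 1).rank = 1 ∨ (mat A - 1).rank = 2 ∨ (mat A - 1).rank = 3 := by omega
  rcases h3 with h3 | h3 | h3
  · exact fin _ (by decide) (by rw [rk_E1, h3]) l1
  · exact fin _ (by decide) (by rw [rk_E12, h3]) l2
  · exact fin _ (by decide) (by rw [rk_E123, h3]) l3

/-- **The row `PSU_n(q)`, `q` even** (`hp` : the row `PSp_4(3) ≅ PSU_4(2)`). -/
theorem crow_psu_even {L : Type u} [Group L] [Finite L] {F : Type} [Field F] [Fintype F] {n q : ℕ}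
    (hF : Fintype.card F = q ^ 2) (hq : Even q) (hn : 3 ≤ n) (h3 : ¬ (n = 3 ∧ q = 2))
    (hp : n = 4 → q = 2 → CRow L) (e : L ≃* Cfsg.PSU n F q) : CRow L := by
  by_cases h4 : n = 4 ∧ q = 2
  · exact hp h4.1 h4.2
  · refine CRow.congr e ?_
    by_cases h6 : n = 6 ∧ q = 2
    · obtain ⟨rfl, rfl⟩ := h6
      intro M _ _ π hπ hπ2
      have hexp : ExpTwo (PSU 6 F 2) := by
        refine expTwo_of_mult (Cfsg.Agent.S2091.result (by rw [hF]; norm_num)) fun a => ?_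
        refine ⟨3, by decide, ?_⟩
        have h1 : ∀ a : Multiplicative (ZMod 3 × ZMod 2 × ZMod 2), a ^ (2 * 3) = 1 := by decide
        exact h1 a
      have hz := hexp M π hπ hπ2
      exact em_of_all_lift hπ.surj hπ.cen hz (fun t ht => lft_usix hF hπ.surj hπ.cen hz ht)
        (em_psu_even hF (by norm_num) even_two)
    · have hm := Cfsg.Agent.S2089.result n q hF hn h3 (by
        simp only [Set.mem_insert_iff, Set.mem_singleton_iff, Prod.mk.injEq]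
        rintro (h | h | h)
        · exact h4 h
        · rw [h.2] at hq
          exact absurd hq (by decide)
        · exact h6 h)
      refine CRow.of_noCov (noCov_of_cyclic hm ?_) (em_psu_even hF hn hq)
      exact Odd.of_dvd_nat hq.add_one (Nat.gcd_dvd_right _ _)

end Cfsg.Agent.H277.MI.PsuEven
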